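import Mathlib
import Cfsg.Agent.Lib.Helper46.FP.Defs

/-!
# S3814 team project, package P9 (PkgD): general group-theoretic lemmas
-/

set_option autoImplicit false

namespace Cfsg.Agent.Lib.Helper64.FP

universe u

variable {G : Type u} [Group G]

/-- if `g n g⁻¹ = n ^ i` then `g ^ k n g ^ (-k) = n ^ (i ^ k)` -/
theorem conj_pow_pow {g n : G} {i : ℕ} (h : g * n * g⁻¹ = n ^ i) (k : ℕ) :
    g ^ k * n * (g ^ k)⁻¹ = n ^ (i ^ k) := by
  induction k with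
  | zero => simp
  | succ k ih =>
    have h1 : g ^ (k + 1) * n * (g ^ (k + 1))⁻¹ = g * (g ^ k * n * (g ^ k)⁻¹) * g⁻¹ := by
      rw [pow_succ']; group
    rw [h1, ih]
    have h2 : g * n ^ (i ^ k) * g⁻¹ = (g * n * g⁻¹) ^ (i ^ k) := conj_pow.symm
    rw [h2, h, ← pow_mul, pow_succ']

/-- `g` normalizes `⟨n⟩` (`n` of prime order `a`) and `g ^ N = 1` with `N` prime to `a - 1`:
then `g` centralizes `n`. -/
theorem commute_of_conj_mem_zpowers {a : ℕ} (ha : a.Prime) {n g : G} (hn : orderOf n = a)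
    (hg : g * n * g⁻¹ ∈ Subgroup.zpowers n) {N : ℕ} (hgN : g ^ N = 1)
    (hcop : N.Coprime (a - 1)) : g * n = n * g := by
  have hfin : IsOfFinOrder n := by
    rw [← orderOf_pos_iff, hn]; exact ha.pos
  have hp : g * n * g⁻¹ ∈ Submonoid.powers n := hfin.mem_powers_iff_mem_zpowers.2 hg
  obtain ⟨i, hi⟩ := (Submonoid.mem_powers_iff _ _).1 hp
  have h1 := conj_pow_pow hi.symm N
  rw [hgN] at h1
  have h2 : n ^ (i ^ N) = n ^ 1 := by rw [← h1]; simp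
  rw [pow_eq_pow_iff_modEq, hn] at h2
  have : Fact a.Prime := ⟨ha⟩
  have h3 : ((i : ZMod a)) ^ N = 1 := by
    have h := (ZMod.natCast_eq_natCast_iff _ _ _).2 h2
    push_cast at h
    exact h
  have hi0 : (i : ZMod a) ≠ 0 := by
    intro h0
    rw [ZMod.natCast_eq_zero_iff] at h0
    have h4 : n ^ i = 1 := by rw [← hn] at h0; exact orderOf_dvd_iff_pow_eq_one.1 h0
    rw [h4] at hi
    have hn1 : n = 1 := by
      have h5 : n = g⁻¹ * (g * n * g⁻¹) * g := by group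
      rw [h5, ← hi]; group
    rw [hn1, orderOf_one] at hn
    exact ha.one_lt.ne hn
  have h4 : (i : ZMod a) ^ (a - 1) = 1 := ZMod.pow_card_sub_one_eq_one hi0
  have h5 : (i : ZMod a) ^ (N.gcd (a - 1)) = 1 := pow_gcd_eq_one.2 ⟨h3, h4⟩
  rw [show N.gcd (a - 1) = 1 from hcop, pow_one] at h5
  have h6 : i ≡ 1 [MOD a] := by
    rw [← ZMod.natCast_eq_natCast_iff]; push_cast; exact h5
  have h7 : n ^ i = n ^ 1 := by rw [pow_eq_pow_iff_modEq, hn]; exact h6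
  rw [pow_one] at h7
  rw [h7] at hi
  calc g * n = (g * n * g⁻¹) * g := by group
    _ = n * g := by rw [← hi]

/-- elements of the closure of a commuting pair -/
theorem mem_closure_pair_comm {z1 z2 : G} (h : z1 * z2 = z2 * z1) {e : G}
    (he : e ∈ Subgroup.closure ({z1, z2} : Set G)) : ∃ i j : ℤ, e = z1 ^ i * z2 ^ j := by
  have hc : Commute z1 z2 := h
  induction he using Subgroup.closure_induction with
  | mem x hx =>
    rcases hx with rfl | rfl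
    · exact ⟨1, 0, by simp⟩
    · exact ⟨0, 1, by simp⟩
  | one => exact ⟨0, 0, by simp⟩
  | mul x y _ _ hx hy =>
    obtain ⟨i, j, rfl⟩ := hx
    obtain ⟨i', j', rfl⟩ := hy
    refine ⟨i + i', j + j', ?_⟩
    have h1 : Commute (z2 ^ j) (z1 ^ i') := (hc.zpow_zpow i' j).symm
    rw [zpow_add, zpow_add]
    calc z1 ^ i * z2 ^ j * (z1 ^ i' * z2 ^ j') = z1 ^ i * (z2 ^ j * z1 ^ i') * z2 ^ j' := by
          simp only [mul_assoc]
      _ = z1 ^ i * (z1 ^ i' * z2 ^ j) * z2 ^ j' := by rw [h1.eq]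
      _ = z1 ^ i * z1 ^ i' * (z2 ^ j * z2 ^ j') := by simp only [mul_assoc]
  | inv x _ hx =>
    obtain ⟨i, j, rfl⟩ := hx
    refine ⟨-i, -j, ?_⟩
    have h1 : Commute (z1 ^ i) (z2 ^ j) := hc.zpow_zpow i j
    rw [mul_inv_rev, zpow_neg, zpow_neg]
    exact (h1.inv_inv).eq.symm

theorem closure_pair_props {z1 z2 : G} (h : z1 * z2 = z2 * z1) {c : ℕ} (h1 : z1 ^ c = 1)
    (h2 : z2 ^ c = 1) {e : G} (he : e ∈ Subgroup.closure ({z1, z2} : Set G)) :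
    e ^ c = 1 ∧ e * z1 = z1 * e ∧ e * z2 = z2 * e := by
  obtain ⟨i, j, rfl⟩ := mem_closure_pair_comm h he
  have hc : Commute z1 z2 := h
  refine ⟨?_, ?_, ?_⟩
  · rw [(hc.zpow_zpow i j).mul_pow, ← zpow_natCast, ← zpow_natCast, ← zpow_mul, ← zpow_mul,
      mul_comm i, mul_comm j, zpow_mul, zpow_mul, zpow_natCast, zpow_natCast, h1, h2]
    simp
  · exact ((Commute.zpow_left (Commute.refl z1) i).mul_left (Commute.zpow_left hc.symm j)).eq
  · exact ((Commute.zpow_left hc i).mul_left (Commute.zpow_left (Commute.refl z2) j)).eq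

theorem closure_pair_comm {z1 z2 : G} (h : z1 * z2 = z2 * z1) {e e' : G}
    (he : e ∈ Subgroup.closure ({z1, z2} : Set G))
    (he' : e' ∈ Subgroup.closure ({z1, z2} : Set G)) : e * e' = e' * e := by
  obtain ⟨i, j, rfl⟩ := mem_closure_pair_comm h he
  obtain ⟨-, h1, h2⟩ := closure_pair_props h (pow_zero z1) (pow_zero z2) he'
  have c1 : Commute e' z1 := h1
  have c2 : Commute e' z2 := h2
  exact ((c1.zpow_right i).mul_right (c2.zpow_right j)).eq.symm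

theorem closure_pair_le {z1 z2 : G} {H : Subgroup G} (h1 : z1 ∈ H) (h2 : z2 ∈ H) :
    Subgroup.closure ({z1, z2} : Set G) ≤ H := by
  rw [Subgroup.closure_le]
  intro x hx
  rcases hx with rfl | rfl
  · exact h1
  · exact h2

theorem commute_of_mem_zpowers {x y k : G} (h : x * k = k * x) (hy : y ∈ Subgroup.zpowers k) :
    x * y = y * x := by
  obtain ⟨j, rfl⟩ := Subgroup.mem_zpowers_iff.1 hy
  exact ((show Commute x k from h).zpow_right j).eq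

open Cfsg.Agent.Lib.Helper46.FP

theorem Fx_of_mem_zpowers {V : Subgroup G} {x y : G} (h : Fx V x)
    (hy : y ∈ Subgroup.zpowers x) : Fx V y := by
  obtain ⟨v, hv, hv1, hvx⟩ := h
  exact ⟨v, hv, hv1, commute_of_mem_zpowers hvx hy⟩

theorem Fx_conj {V : Subgroup G} (hV : V.Normal) {x : G} (h : Fx V x) (g : G) :
    Fx V (g * x * g⁻¹) := by
  obtain ⟨v, hv, hv1, hvx⟩ := h
  refine ⟨g * v * g⁻¹, hV.conj_mem v hv g, ?_, ?_⟩
  · intro h1
    apply hv1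
    have h2 : v = g⁻¹ * (g * v * g⁻¹) * g := by group
    rw [h2, h1]; group
  · calc g * v * g⁻¹ * (g * x * g⁻¹) = g * (v * x) * g⁻¹ := by group
      _ = g * (x * v) * g⁻¹ := by rw [hvx]
      _ = g * x * g⁻¹ * (g * v * g⁻¹) := by group

theorem Fx_of_conj {V : Subgroup G} (hV : V.Normal) {x : G} (g : G)
    (h : Fx V (g * x * g⁻¹)) : Fx V x := by
  have h1 := Fx_conj hV h g⁻¹
  have h2 : g⁻¹ * (g * x * g⁻¹) * g⁻¹⁻¹ = x := by group
  rw [h2] at h1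
  exact h1

/-- powers of an element of a coset `y N` -/
theorem coset_pow {N : Subgroup G} {y n' : G} (hyN : ∀ x ∈ N, y⁻¹ * x * y ∈ N) (hn' : n' ∈ N)
    (k : ℕ) : ∃ n'' ∈ N, (y * n') ^ k = y ^ k * n'' := by
  induction k with
  | zero => exact ⟨1, N.one_mem, by simp⟩
  | succ k ih =>
    obtain ⟨n'', hn'', h⟩ := ih
    refine ⟨y⁻¹ * n'' * y * n', N.mul_mem (hyN _ hn'') hn', ?_⟩
    rw [pow_succ, h, pow_succ]; group

theorem exists_pow_orderOf_eq_of_pow_mem [Finite G] {b : ℕ} (hb : b.Prime) (N : Subgroup G)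
    {y : G} (h1 : y ^ b ∈ N) (h2 : y ∉ N) : ∃ j : ℕ, orderOf (y ^ j) = b := by
  have hd : b ∣ orderOf y := by
    by_contra hnd
    have hcop : Nat.Coprime b (orderOf y) := (Nat.Prime.coprime_iff_not_dvd hb).2 hnd
    obtain ⟨m, hm⟩ := exists_pow_eq_self_of_coprime hcop
    apply h2
    rw [← hm]
    exact N.pow_mem h1 m
  exact ⟨orderOf y / b, orderOf_pow_orderOf_div (orderOf_pos y).ne' hd⟩

/-- conjugation by `H` on a normal cyclic subgroup `⟨n⟩` is "abelian": commutators of `H`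
centralize `n`. -/
theorem comm_commute_of_normIn {H : Subgroup G} {n : G} (hN : NormIn (Subgroup.zpowers n) H)
    {h k : G} (hh : h ∈ H) (hk : k ∈ H) :
    (h * k * h⁻¹ * k⁻¹) * n = n * (h * k * h⁻¹ * k⁻¹) := by
  have key : ∀ g ∈ H, ∃ i : ℤ, g * n * g⁻¹ = n ^ i := by
    intro g hg
    obtain ⟨i, hi⟩ := Subgroup.mem_zpowers_iff.1 (hN.2 g hg n (Subgroup.mem_zpowers n))
    exact ⟨i, hi.symm⟩
  obtain ⟨i, hi⟩ := key h⁻¹ (H.inv_mem hh)
  obtain ⟨j, hj⟩ := key k⁻¹ (H.inv_mem hk)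
  have e1 : (h⁻¹ * k⁻¹) * n * (h⁻¹ * k⁻¹)⁻¹ = n ^ (i * j) := by
    have h0 : (h⁻¹ * k⁻¹) * n * (h⁻¹ * k⁻¹)⁻¹ = h⁻¹ * (k⁻¹ * n * k⁻¹⁻¹) * h⁻¹⁻¹ := by group
    rw [h0, hj, ← conj_zpow, hi, ← zpow_mul]
  have e2 : (k⁻¹ * h⁻¹) * n * (k⁻¹ * h⁻¹)⁻¹ = n ^ (i * j) := by
    have h0 : (k⁻¹ * h⁻¹) * n * (k⁻¹ * h⁻¹)⁻¹ = k⁻¹ * (h⁻¹ * n * h⁻¹⁻¹) * k⁻¹⁻¹ := by group
    rw [h0, hi, ← conj_zpow, hj, ← zpow_mul, mul_comm]
  have e3 : (h⁻¹ * k⁻¹) * n * (h⁻¹ * k⁻¹)⁻¹ = (k⁻¹ * h⁻¹) * n * (k⁻¹ * h⁻¹)⁻¹ :=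
    e1.trans e2.symm
  have e4 : h * k * h⁻¹ * k⁻¹ * n
      = (k⁻¹ * h⁻¹)⁻¹ * ((h⁻¹ * k⁻¹) * n * (h⁻¹ * k⁻¹)⁻¹) * (h⁻¹ * k⁻¹) := by group
  rw [e4, e3]; group

/-- a conjugate (by `h ∈ H`) of an element centralizing `n` centralizes `n`, when `H`
normalizes `⟨n⟩`. -/
theorem conj_commute_of_normIn {H : Subgroup G} {n : G} (hN : NormIn (Subgroup.zpowers n) H)
    {h x : G} (hh : h ∈ H) (hx : x * n = n * x) : (h * x * h⁻¹) * n = n * (h * x * h⁻¹) := by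
  have h1 := hN.2 h⁻¹ (H.inv_mem hh) n (Subgroup.mem_zpowers n)
  have h2 := commute_of_mem_zpowers hx h1
  calc h * x * h⁻¹ * n = h * (x * (h⁻¹ * n * h⁻¹⁻¹)) * h⁻¹ := by group
    _ = h * ((h⁻¹ * n * h⁻¹⁻¹) * x) * h⁻¹ := by rw [h2]
    _ = n * (h * x * h⁻¹) := by group

/-- elements of two subgroups which normalize each other and meet trivially commute -/
theorem commute_of_disjoint_norm {K1 K2 : Subgroup G} (hd : Disjoint K1 K2) {x y : G}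
    (hx : x ∈ K1) (hy : y ∈ K2) (h1 : ∀ k ∈ K1, y * k * y⁻¹ ∈ K1)
    (h2 : ∀ k ∈ K2, x * k * x⁻¹ ∈ K2) : x * y = y * x := by
  have e1 : x * y * x⁻¹ * y⁻¹ ∈ K1 := by
    have h3 : x * y * x⁻¹ * y⁻¹ = x * (y * x⁻¹ * y⁻¹) := by group
    rw [h3]; exact K1.mul_mem hx (h1 _ (K1.inv_mem hx))
  have e2 : x * y * x⁻¹ * y⁻¹ ∈ K2 := K2.mul_mem (h2 _ hy) (K2.inv_mem hy)
  have e3 : x * y * x⁻¹ * y⁻¹ = 1 := by
    have := Subgroup.disjoint_def.1 hd e1 e2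
    exact this
  calc x * y = (x * y * x⁻¹ * y⁻¹) * (y * x) := by group
    _ = y * x := by rw [e3, one_mul]

/-- `N := H ∩ C(n) ∩ C(m)` -/
def NN (H : Subgroup G) (n m : G) : Subgroup G :=
  H ⊓ Subgroup.centralizer ({n} : Set G) ⊓ Subgroup.centralizer ({m} : Set G)

theorem mem_NN {H : Subgroup G} {n m x : G} :
    x ∈ NN H n m ↔ x ∈ H ∧ x * n = n * x ∧ x * m = m * x := by
  unfold NN
  rw [Subgroup.mem_inf, Subgroup.mem_inf, Subgroup.mem_centralizer_singleton_iff,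
    Subgroup.mem_centralizer_singleton_iff]
  constructor
  · rintro ⟨⟨h1, h2⟩, h3⟩
    exact ⟨h1, h2, h3⟩
  · rintro ⟨h1, h2, h3⟩
    exact ⟨⟨h1, h2⟩, h3⟩

theorem NN_le (H : Subgroup G) (n m : G) : NN H n m ≤ H := fun _ hx => (mem_NN.1 hx).1

end Cfsg.Agent.Lib.Helper64.FP
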