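import Mathlib
import Cfsg.Agent.Lib.Helper46.FP.Defs
import Cfsg.Agent.Lib.Helper37.FP.Easy
import Cfsg.Agent.Lib.Helper97.FP.Tools
import Cfsg.Agent.Lib.Helper29.FP.T2
import Cfsg.Agent.Lib.Helper24.FP.BFM
import Cfsg.Agent.Lib.Helper64.FP.Basic

/-!
# S3814 team project, package P9 (PkgD): the context of case (D) and steps D0-D3
-/

set_option autoImplicit false

namespace Cfsg.Agent.Lib.Helper64.FP

open Cfsg.Agent.Lib.Helper46.FP

universe u

/-- The data of case (D): `n, m ∈ H` of prime orders `a ≠ b` generating normal subgroups of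
`H`, `c` the third prime, `za, zb ∈ H` commuting of order `c` with `C(n) ∋ za ∌ zb`,
`C(m) ∋ zb ∌ za`.  Symmetric in `(a, n, za) ↔ (b, m, zb)`. -/
structure DCtx {G : Type u} [Group G] (V H : Subgroup G) (t : ℕ) (π : Finset ℕ) (a b c : ℕ)
    (n m za zb : G) : Prop where
  hc : Cfg V H t π
  hfa : Faithful V H
  hT1 : BF_T1.{u}
  hC1a : BF_C1a.{u}
  hC1b : BF_C1b.{u}
  hT3 : BF_T3.{u}
  hM : BF_M.{u}
  hNF : BF_NF.{u}
  hY : LemY.{u}
  ha : a ∈ π
  hb : b ∈ π
  hcπ : c ∈ π
  hab : a ≠ b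
  hac : a ≠ c
  hbc : b ≠ c
  hn : n ∈ H
  hm : m ∈ H
  hna : orderOf n = a
  hmb : orderOf m = b
  hnN : NormIn (Subgroup.zpowers n) H
  hmN : NormIn (Subgroup.zpowers m) H
  hza : za ∈ H
  hzb : zb ∈ H
  hzac : orderOf za = c
  hzbc : orderOf zb = c
  hzz : za * zb = zb * za
  hzan : za * n = n * za
  hzbm : zb * m = m * zb
  hzam : za * m ≠ m * za
  hzbn : zb * n ≠ n * zb

namespace DCtx

variable {G : Type u} [Group G] {V H : Subgroup G} {t : ℕ} {π : Finset ℕ} {a b c : ℕ}
  {n m za zb : G}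

theorem symm (d : DCtx V H t π a b c n m za zb) : DCtx V H t π b a c m n zb za where
  hc := d.hc
  hfa := d.hfa
  hT1 := d.hT1
  hC1a := d.hC1a
  hC1b := d.hC1b
  hT3 := d.hT3
  hM := d.hM
  hNF := d.hNF
  hY := d.hY
  ha := d.hb
  hb := d.ha
  hcπ := d.hcπ
  hab := d.hab.symm
  hac := d.hbc
  hbc := d.hac
  hn := d.hm
  hm := d.hn
  hna := d.hmb
  hmb := d.hna
  hnN := d.hmN
  hmN := d.hnN
  hza := d.hzb
  hzb := d.hza
  hzac := d.hzbc
  hzbc := d.hzac
  hzz := d.hzz.symm
  hzan := d.hzbm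
  hzbm := d.hzan
  hzam := d.hzbn
  hzbn := d.hzam

theorem ap (d : DCtx V H t π a b c n m za zb) : a.Prime := d.hc.piprime a d.ha

theorem bp (d : DCtx V H t π a b c n m za zb) : b.Prime := d.hc.piprime b d.hb

theorem cp (d : DCtx V H t π a b c n m za zb) : c.Prime := d.hc.piprime c d.hcπ

theorem n_ne_one (d : DCtx V H t π a b c n m za zb) : n ≠ 1 := by
  intro h
  have h1 := d.hna
  rw [h, orderOf_one] at h1
  exact d.ap.one_lt.ne h1

theorem m_ne_one (d : DCtx V H t π a b c n m za zb) : m ≠ 1 := d.symm.n_ne_one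

theorem pi_cases (d : DCtx V H t π a b c n m za zb) {q : ℕ} (hq : q ∈ π) :
    q = a ∨ q = b ∨ q = c := by
  have h1 : ({a, b, c} : Finset ℕ) ⊆ π := by
    intro x hx
    simp only [Finset.mem_insert, Finset.mem_singleton] at hx
    rcases hx with rfl | rfl | rfl
    · exact d.ha
    · exact d.hb
    · exact d.hcπ
  have h2 : ({a, b, c} : Finset ℕ).card = 3 := by
    rw [Finset.card_insert_of_notMem, Finset.card_insert_of_notMem, Finset.card_singleton]
    · simp [d.hbc]
    · simp [d.hab, d.hac]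
  have h3 : ({a, b, c} : Finset ℕ) = π :=
    Finset.eq_of_subset_of_card_le h1 (by rw [h2, d.hc.card3])
  rw [← h3] at hq
  simpa using hq

/-- D0: `n` and `m` commute -/
theorem nm (d : DCtx V H t π a b c n m za zb) : n * m = m * n := by
  have hd : Disjoint (Subgroup.zpowers n) (Subgroup.zpowers m) := by
    apply Subgroup.disjoint_of_coprime_natCard
    rw [Nat.card_zpowers, Nat.card_zpowers, d.hna, d.hmb]
    exact (Nat.coprime_primes d.ap d.bp).2 d.hab
  exact commute_of_disjoint_norm hd (Subgroup.mem_zpowers n) (Subgroup.mem_zpowers m)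
    (d.hnN.2 m d.hm) (d.hmN.2 n d.hn)

theorem n_free (d : DCtx V H t π a b c n m za zb) : ¬ Fx V n :=
  d.hNF d.hc d.hfa n d.hn (by rw [d.hna]; exact d.ap) d.hnN

theorem m_free (d : DCtx V H t π a b c n m za zb) : ¬ Fx V m := d.symm.n_free

/-- an element of prime order of `H` which does not centralize `n` has a fixed point on `V` -/
theorem fix_of_moves (d : DCtx V H t π a b c n m za zb) {z : G} (hz : z ∈ H)
    (hzp : (orderOf z).Prime) (hmv : z * n ≠ n * z) : Fx V z := by
  have := d.hc.fin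
  by_contra hnF
  have hVn := d.hc.Vnormal
  have hnp : (orderOf n).Prime := by rw [d.hna]; exact d.ap
  have hcop : (Nat.card (Subgroup.zpowers n)).Coprime (Nat.card V) := by
    have : Fact t.Prime := ⟨d.hc.tprime⟩
    obtain ⟨j, hj⟩ := (Cfsg.Agent.Lib.Helper37.FP.Cfg_isPGroup_V d.hc).exists_card_eq
    rw [hj]
    exact Nat.Coprime.pow_right j
      (Cfsg.Agent.Lib.Helper24.FP.card_coprime_of_le d.hc _ d.hnN.1)
  have key := Cfsg.Agent.Lib.Helper29.FP.t2' (Subgroup.zpowers n) V z (d.hnN.2 z hz)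
    (fun w hw => hVn.conj_mem w hw z) (fun k _ w hw => hVn.conj_mem w hw k) d.hc.Vcomm hcop
    (by
      intro i hi k hk hcomm
      by_contra hk1
      have h1 : n ∈ Subgroup.zpowers k :=
        Cfsg.Agent.Lib.Helper37.FP.mem_zpowers_of_prime_order hnp hk hk1
      have h2 : z ∈ Subgroup.zpowers (z ^ i) :=
        Cfsg.Agent.Lib.Helper37.FP.mem_zpowers_of_prime_order hzp
          (Subgroup.pow_mem _ (Subgroup.mem_zpowers z) i) hi
      have h3 : z ^ i * n = n * z ^ i := commute_of_mem_zpowers hcomm h1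
      have h4 : n * z = z * n := commute_of_mem_zpowers h3.symm h2
      exact hmv h4.symm)
    (by
      intro w hw hcomm
      by_contra hw1
      exact hnF ⟨w, hw, hw1, hcomm.symm⟩)
  have h5 : n = 1 := d.hfa n d.hn (fun v hv => (key n (Subgroup.mem_zpowers n) v hv).symm)
  exact d.n_ne_one h5

/-- no element of order `c` centralizes both `n` and `m` -/
theorem no_c_cent (d : DCtx V H t π a b c n m za zb) {z : G} (hzc : orderOf z = c)
    (h1 : z * n = n * z) (h2 : z * m = m * z) : False :=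
  Cfsg.Agent.Lib.Helper24.FP.no_triple_commuting d.hc d.ha d.hb d.hcπ d.hab d.hbc d.hac n m z
    d.hna d.hmb hzc d.nm h1.symm h2.symm

/-- D1: every element of order `c` of `H` has a fixed point on `V` -/
theorem fixc (d : DCtx V H t π a b c n m za zb) {z : G} (hz : z ∈ H) (hzc : orderOf z = c) :
    Fx V z := by
  have hzp : (orderOf z).Prime := by rw [hzc]; exact d.cp
  by_cases h1 : z * n = n * z
  · by_cases h2 : z * m = m * z
    · exact (d.no_c_cent hzc h1 h2).elim
    · exact d.symm.fix_of_moves hz hzp h2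
  · exact d.fix_of_moves hz hzp h1

/-- D2: an element of order `c` commuting with an element `y` of order `b` does not
centralize `n`; `y` centralizes `n` and has no fixed point on `V`. -/
theorem d2 (d : DCtx V H t π a b c n m za zb) {z y : G} (hz : z ∈ H) (hzc : orderOf z = c)
    (hy : y ∈ H) (hyb : orderOf y = b) (hzy : z * y = y * z) :
    z * n ≠ n * z ∧ y * n = n * y ∧ ¬ Fx V y := by
  have := d.hc.fin
  have hnp : (orderOf n).Prime := by rw [d.hna]; exact d.ap
  have hP : IsPGroup a (Subgroup.zpowers n) := by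
    have : Fact a.Prime := ⟨d.ap⟩
    exact IsPGroup.of_card (n := 1) (by rw [Nat.card_zpowers, d.hna, pow_one])
  have hPne : Subgroup.zpowers n ≠ ⊥ := by
    intro h
    have h1 : n ∈ Subgroup.zpowers n := Subgroup.mem_zpowers n
    rw [h, Subgroup.mem_bot] at h1
    exact d.n_ne_one h1
  rcases d.hM d.hc d.hfa b d.hb c d.hcπ a d.ha d.hbc d.hac.symm d.hab.symm y hy z hz hyb hzc
    hzy.symm (Subgroup.zpowers n) d.hnN.1 hP hPne (d.hnN.2 y hy) (d.hnN.2 z hz) with
    ⟨⟨k, hk, hk1, hyk⟩, hzf, hnFy, -⟩ | ⟨-, -, hnFz, -⟩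
  · refine ⟨?_, ?_, hnFy⟩
    · intro h
      exact d.n_ne_one (hzf n (Subgroup.mem_zpowers n) h)
    · exact commute_of_mem_zpowers hyk
        (Cfsg.Agent.Lib.Helper37.FP.mem_zpowers_of_prime_order hnp hk hk1)
  · exact (hnFz (d.fixc hz hzc)).elim

/-- `H` normalizes `N = H ∩ C(n) ∩ C(m)` -/
theorem NN_conj (d : DCtx V H t π a b c n m za zb) {h x : G} (hh : h ∈ H)
    (hx : x ∈ NN H n m) : h * x * h⁻¹ ∈ NN H n m := by
  rw [mem_NN] at hx ⊢
  exact ⟨H.mul_mem (H.mul_mem hh hx.1) (H.inv_mem hh), conj_commute_of_normIn d.hnN hh hx.2.1,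
    conj_commute_of_normIn d.hmN hh hx.2.2⟩

/-- commutators of `H` lie in `N` -/
theorem NN_comm (d : DCtx V H t π a b c n m za zb) {h k : G} (hh : h ∈ H) (hk : k ∈ H) :
    h * k * h⁻¹ * k⁻¹ ∈ NN H n m := by
  rw [mem_NN]
  exact ⟨H.mul_mem (H.mul_mem (H.mul_mem hh hk) (H.inv_mem hh)) (H.inv_mem hk),
    comm_commute_of_normIn d.hnN hh hk, comm_commute_of_normIn d.hmN hh hk⟩

/-- `N` is a `c'`-group -/
theorem NN_card (d : DCtx V H t π a b c n m za zb) : ¬ c ∣ Nat.card (NN H n m) := by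
  have := d.hc.fin
  intro hdvd
  have : Fact c.Prime := ⟨d.cp⟩
  obtain ⟨x, hx⟩ := exists_prime_orderOf_dvd_card' c hdvd
  have hx' : orderOf (x : G) = c := by rw [Subgroup.orderOf_coe]; exact hx
  have hmem := mem_NN.1 x.2
  exact d.no_c_cent hx' hmem.2.1 hmem.2.2

/-- D3: every element of order `b` of `H` lies in `N` -/
theorem NN_of_order_b (d : DCtx V H t π a b c n m za zb) {y : G} (hy : y ∈ H)
    (hyb : orderOf y = b) : y ∈ NN H n m := by
  have := d.hc.fin
  by_contra hyN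
  obtain ⟨n', hn', hcomm⟩ := Cfsg.Agent.Lib.Helper97.FP.tool_CPb c 1 d.cp za
    (by rw [pow_one]; exact d.hzac) H (NN H n m)
    (fun k hk x hx => d.NN_conj hk hx) (fun x hx => d.NN_conj d.hza hx) d.NN_card y hy
    (d.NN_comm d.hza hy)
  have hy'N : y * n' ∉ NN H n m := by
    intro h
    apply hyN
    have h1 : y = (y * n') * n'⁻¹ := by group
    rw [h1]
    exact Subgroup.mul_mem _ h (Subgroup.inv_mem _ hn')
  have hpow : (y * n') ^ b ∈ NN H n m := by
    obtain ⟨n'', hn'', h⟩ := coset_pow (N := NN H n m) (y := y) (fun x hx => by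
      have h1 := d.NN_conj (H.inv_mem hy) hx
      rw [inv_inv] at h1
      exact h1) hn' b
    rw [h, ← hyb, pow_orderOf_eq_one, one_mul]
    exact hn''
  obtain ⟨j, hj⟩ := exists_pow_orderOf_eq_of_pow_mem d.bp (NN H n m) hpow hy'N
  have hy'H : y * n' ∈ H := H.mul_mem hy (NN_le H n m hn')
  have h3 := d.d2 d.hza d.hzac (H.pow_mem hy'H j) hj
    ((show Commute za (y * n') from hcomm).pow_right j).eq
  exact h3.1 d.hzan

end DCtx

end Cfsg.Agent.Lib.Helper64.FP
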